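import Cfsg.Agent.H3.PResidual
import Mathlib.GroupTheory.Perm.Cycle.Type

/-! An element of even order acting freely with an odd number of cycles is an odd permutation:
a form of the Thompson transfer lemma in which the subgroup need not be normal in the Sylow
subgroup. -/

set_option autoImplicit false

namespace Cfsg.Agent.H60

open Subgroup

theorem sign_eq_neg_one_of_free {X : Type*} [Fintype X] [DecidableEq X] (σ : Equiv.Perm X) {m r : ℕ}
    (hm : Even m) (hm0 : m ≠ 0) (hr : Odd r) (hX : Fintype.card X = m * r) (hσ : σ ^ m = 1)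
    (hfree : ∀ (k : ℕ) (x : X), (σ ^ k) x = x → m ∣ k) : Equiv.Perm.sign σ = -1 := by
  have h1 : ∀ n ∈ σ.cycleType, n = m := fun n hn => by
    refine Nat.dvd_antisymm ((Equiv.Perm.dvd_of_mem_cycleType hn).trans
      (orderOf_dvd_of_pow_eq_one hσ)) ?_
    obtain ⟨c, τ, rfl, hd, hc, rfl⟩ := Equiv.Perm.mem_cycleType_iff.mp hn
    obtain ⟨x, hx, -⟩ := id hc
    refine hfree _ x ?_
    rw [hd.commute.mul_pow, ← hc.orderOf, pow_orderOf_eq_one, one_mul]
    exact Equiv.Perm.pow_apply_eq_self_of_apply_eq_self ((hd x).resolve_left hx) _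
  have h2 : σ.cycleType = Multiset.replicate (Multiset.card σ.cycleType) m :=
    Multiset.eq_replicate_card.mpr h1
  have h3 : σ.support = Finset.univ := Finset.eq_univ_of_forall fun x =>
    Equiv.Perm.mem_support.mpr fun h => by
      have := Nat.dvd_one.mp (hfree 1 x (by rwa [pow_one]))
      rw [this] at hm
      exact absurd hm (by decide)
  have h4 := σ.sum_cycleType
  rw [h3, Finset.card_univ, hX] at h4
  have h5 : Multiset.card σ.cycleType = r := by
    have := h4
    rw [h2, Multiset.sum_replicate, smul_eq_mul, mul_comm] at this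
    exact Nat.eq_of_mul_eq_mul_left (Nat.pos_of_ne_zero hm0) this
  rw [Equiv.Perm.sign_of_cycleType, h4, h5]
  exact ((hm.mul_right r).add_odd hr).neg_one_pow

/-- If `c` has even order, no nontrivial power of `c` is conjugate into `U`, and `|G : U|` is an odd
multiple of the order of `c`, then `c ∉ O²(G)`. -/
theorem notMem_pResidual_two {G : Type*} [Group G] [Finite G] (U : Subgroup G) {c : G} {r : ℕ}
    (hc : Even (orderOf c)) (hr : Odd r) (hU : U.index = orderOf c * r)
    (hfree : ∀ (k : ℕ) (g : G), g * c ^ k * g⁻¹ ∈ U → c ^ k = 1) : c ∉ pResidual 2 G := by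
  classical
  haveI : Fact (Nat.Prime 2) := ⟨Nat.prime_two⟩
  haveI : Fintype (G ⧸ U) := Fintype.ofFinite _
  intro h
  have h1 := H3.pResidual_le_ker (Equiv.Perm.sign.comp (MulAction.toPermHom G (G ⧸ U)))
    (IsPGroup.of_card (n := 1) (by rw [Nat.card_eq_fintype_card, Fintype.card_units_int, pow_one])) h
  rw [MonoidHom.mem_ker, MonoidHom.comp_apply, sign_eq_neg_one_of_free _ hc
    (orderOf_pos c).ne' hr (by rw [← hU, index, Nat.card_eq_fintype_card])
    (by rw [← map_pow, pow_orderOf_eq_one, map_one])] at h1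
  · exact absurd h1 (by decide)
  · intro k x hx
    induction x using QuotientGroup.induction_on with
    | H g =>
      rw [← map_pow] at hx
      have h2 : ((c ^ k * g : G) : G ⧸ U) = g := hx
      rw [eq_comm, QuotientGroup.eq] at h2
      exact orderOf_dvd_of_pow_eq_one (hfree k g⁻¹ (by simpa [mul_assoc] using h2))

end Cfsg.Agent.H60
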